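import Cfsg.Agent.BU.Model

/-!
Binary actions of a model of the unitary group: the action of the Borel subgroup on the fixed points of the root
subgroup.
-/

set_option autoImplicit false
set_option linter.unusedSectionVars false
set_option linter.unusedSimpArgs false

namespace Cfsg.Agent.BU

open MulAction Cfsg.Agent.H5.U3Syl

variable {F : Type*} [Field F] [CharP F 2] {σ : F →+* F} [hσ : Fact (∀ x, σ (σ x) = x)]

namespace Model

variable {G : Type*} [Group G] [Finite G] (M : Model σ G) (ht : ∀ a : F, ∃ u : PP σ, u.a = a)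
  {Ω : Type*} [MulAction G Ω]

/-- Points fixed by the root subgroup. -/
def Φ (p : Ω) : Prop := ∀ z ∈ M.Z, z • p = p

/-- A translation. -/
noncomputable def T (a : F) : G := M.x (ht a).choose

variable {M}

include ht in
theorem Φ.smul {p : Ω} (hp : M.Φ p) {b : G} (hb : b ∈ M.B) : M.Φ (b • p) := fun z hz => by
  have := hp _ (M.conj_mem_Z ht (inv_mem hb) hz)
  rwa [inv_inv, mul_smul, mul_smul, inv_smul_eq_iff] at this

theorem T_mem (a : F) : M.T ht a ∈ M.B := M.x_mem_B _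

theorem Φ.T {p : Ω} (hp : M.Φ p) (a : F) : M.Φ (M.T ht a • p) := hp.smul ht (T_mem ht a)

include ht in
theorem Φ.h {p : Ω} (hp : M.Φ p) (y : Fˣ) : M.Φ (M.h y • p) := hp.smul ht (M.h_mem_B y)

theorem Φ.x_eq {p : Ω} (hp : M.Φ p) (u : PP σ) : M.x u • p = M.T ht u.a • p := by
  have h1 := hp _ (M.z_mem (u := ((ht u.a).choose)⁻¹ * u) (by
    simp [(ht u.a).choose_spec, CharTwo.add_self_eq_zero]))
  rwa [map_mul, map_inv, mul_smul, inv_smul_eq_iff] at h1

theorem Φ.T_T {p : Ω} (hp : M.Φ p) (a b : F) : M.T ht a • M.T ht b • p = M.T ht (a + b) • p := by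
  rw [← mul_smul, Model.T, Model.T, ← map_mul, hp.x_eq ht, mul_a, (ht a).choose_spec, (ht b).choose_spec]

theorem Φ.T_zero {p : Ω} (hp : M.Φ p) : M.T ht 0 • p = p := hp _ (M.z_mem (ht 0).choose_spec)

theorem Φ.h_T {p : Ω} (hp : M.Φ p) (y : Fˣ) (a : F) :
    M.h y • M.T ht a • p = M.T ht (lam σ y * a) • M.h y • p := by
  rw [← mul_smul, Model.T, h_mul_x, mul_smul, (hp.h ht y).x_eq ht, act_a, (ht a).choose_spec]

theorem Φ.T_eq_iff {p : Ω} (hp : M.Φ p) {a b : F} : M.T ht a • p = M.T ht b • p ↔ M.T ht (a + b) • p = p := by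
  constructor
  · intro h
    rw [add_comm, ← hp.T_T, h, hp.T_T, CharTwo.add_self_eq_zero, hp.T_zero]
  · intro h
    conv_rhs => rw [← h, hp.T_T, add_comm a, ← add_assoc, CharTwo.add_self_eq_zero, zero_add]

theorem h_comm (y z : Fˣ) (p : Ω) : M.h y • M.h z • p = M.h z • M.h y • p := by
  rw [← mul_smul, ← map_mul, mul_comm, map_mul, mul_smul]

theorem exists_Th {g : G} (hg : g ∈ M.B) : ∃ c y, ∀ p : Ω, M.Φ p → g • p = M.T ht c • M.h y • p := by
  obtain ⟨u, y, rfl⟩ := hg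
  exact ⟨u.a, y, fun p hp => by rw [mul_smul, (hp.h ht y).x_eq ht]⟩

include ht in
/-- Correction of a group element into the Borel subgroup. -/
theorem corr {ι : Type*} {I J : ι → Ω} (hI : ∀ i, M.Φ (I i)) (hJ : ∀ i, M.Φ (J i)) {g : G}
    (hg : ∀ i, g • I i = J i) : ∃ g' ∈ M.B, ∀ i, g' • I i = J i := by
  by_cases hB : g ∈ M.B
  · exact ⟨g, hB, hg⟩
  obtain ⟨k, hk⟩ := M.exists_conj ht (t := g * M.z₀ * g⁻¹) (c := g) M.z₀_mem M.z₀_ne
    (by simpa [mul_assoc] using M.z₀_mem) (by simpa using M.z₀_ne) hB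
  have h1 : ∀ i, (M.z₀ * (g * M.z₀ * g⁻¹)) ^ k ∈ stabilizer G (J i) := fun i =>
    pow_mem (mul_mem (hJ i _ M.z₀_mem) (by
      rw [mem_stabilizer_iff, ← hg, mul_smul, mul_smul, inv_smul_smul, hI i _ M.z₀_mem])) k
  generalize (M.z₀ * (g * M.z₀ * g⁻¹)) ^ k = m at hk h1
  refine ⟨m⁻¹ * g, M.R.mem_B_of_conj_U (M.Z_le_U M.z₀_mem) M.z₀_ne ?_, fun i => ?_⟩
  · have : m⁻¹ * g * M.z₀ * (m⁻¹ * g)⁻¹ = M.z₀ := by
      calc _ = m⁻¹ * (g * M.z₀ * g⁻¹) * m := by simp [mul_assoc]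
        _ = _ := by rw [← hk]; simp [mul_assoc]
    rw [this]
    exact M.Z_le_U M.z₀_mem
  · rw [mul_smul, hg, inv_smul_eq_iff, h1 i]

include ht in
theorem tripleB (hb : H9.Bin G Ω) {x y z : Ω} (hx : M.Φ x) (hy : M.Φ y) (hz : M.Φ z) {a b : G} (haB : a ∈ M.B)
    (ha : a • x = x) (hb' : b • y = y) (hab : a • z = b • z) :
    ∃ g ∈ M.B, g • x = x ∧ g • y = y ∧ g • z = a • z := by
  obtain ⟨g, g1, g2, g3⟩ := hb.triple ha hb' hab
  obtain ⟨g', h1, h2⟩ := corr ht (M := M) (I := ![x, y, z]) (J := ![x, y, a • z]) (g := g)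
    (fun i => by fin_cases i; exacts [hx, hy, hz]) (fun i => by fin_cases i; exacts [hx, hy, hz.smul ht haB])
    (fun i => by fin_cases i; exacts [g1, g2, g3])
  exact ⟨g', h1, h2 0, h2 1, h2 2⟩

variable [Finite F]

theorem cancel_of_closed {V : Set F} (hadd : ∀ a ∈ V, ∀ b ∈ V, a + b ∈ V) {μ : F} (hμ : μ ≠ 1)
    (hm : ∀ a ∈ V, μ * a ∈ V) {e : F} (he : (μ + 1) * e ∈ V) : e ∈ V := by
  have h0 : μ + 1 ≠ 0 := fun h => hμ (by grind)
  let f : V → V := fun a => ⟨(μ + 1) * a, by rw [add_mul, one_mul]; exact hadd _ (hm _ a.2) _ a.2⟩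
  have hf : Function.Injective f := fun a b h => Subtype.ext (mul_left_cancel₀ h0 (congrArg Subtype.val h))
  obtain ⟨a, ha⟩ := Finite.injective_iff_surjective.1 hf ⟨_, he⟩
  rw [← mul_left_cancel₀ h0 (congrArg Subtype.val ha)]
  exact a.2

/-- If a non-trivial torus element fixes the point, so does the whole unipotent group. -/
theorem all_T_of_h (hb : H9.Bin G Ω) {p : Ω} (hp : M.Φ p) {y : Fˣ} (hy : M.h y • p = p) (hl : lam σ y ≠ 1)
    (e : F) : M.T ht e • p = p := by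
  let V : Set F := {e | M.T ht e • p = p}
  have hV : ∀ e, e ∈ V ↔ M.T ht e • p = p := fun _ => Iff.rfl
  have V1 : ∀ a ∈ V, ∀ b ∈ V, a + b ∈ V := fun a ha b hb => by rw [hV, ← hp.T_T, hb, ha]
  have V2 : ∀ y', M.h y' • p = p → ∀ a ∈ V, lam σ y' * a ∈ V := fun y' h a ha => by
    have := hp.h_T ht y' a
    rw [ha, h] at this
    exact this.symm
  have V4 : ∀ c y', M.T ht c • M.h y' • p = p → c ∈ V ∧ M.h y' • p = p := fun c y' h => by
    have h1 : M.h y' • p = M.T ht c • p := by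
      conv_rhs => rw [← h, (hp.h ht y').T_T, CharTwo.add_self_eq_zero, (hp.h ht y').T_zero]
    have h2 : M.h y • M.T ht c • M.h y' • p = M.h y • p := by rw [h]
    rw [(hp.h ht y').h_T, h_comm, hy, h1, hp.T_T] at h2
    have h3 : c ∈ V := cancel_of_closed V1 hl (V2 y hy) (by rw [add_mul, one_mul]; exact h2)
    exact ⟨h3, h1.trans h3⟩
  by_contra he
  have h0 : lam σ y + 1 ≠ 0 := fun h => hl (by grind)
  have hl0 := lam_ne (σ := σ) y
  have hy' : M.h y⁻¹ • p = p := by rw [map_inv, inv_smul_eq_iff, hy]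
  obtain ⟨g, gB, g1, g2, g3⟩ := tripleB ht hb hp (hp.T ht e) (hp.T ht (e / (lam σ y + 1))) (M.h_mem_B y)
    (b := M.T ht e * M.h y⁻¹ * M.T ht e) hy (by
      rw [mul_smul, mul_smul, hp.T_T, CharTwo.add_self_eq_zero, hp.T_zero, hy']) (by
      rw [mul_smul, mul_smul, hp.T_T, hp.h_T, hp.h_T, hy, hy', hp.T_T, lam_inv]
      congr 2
      field_simp
      grind)
  obtain ⟨c, y', hg⟩ := exists_Th ht (Ω := Ω) gB
  rw [hg _ hp] at g1
  obtain ⟨c1, c2⟩ := V4 c y' g1
  rw [hg _ (hp.T ht _), hp.h_T, c2, hp.T_T, hp.T_eq_iff] at g2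
  have h1 : lam σ y' = 1 := by
    by_contra h
    refine he (cancel_of_closed V1 h (V2 y' c2) ?_)
    have := V1 _ c1 _ g2
    convert this using 1
    grind
  rw [hg _ (hp.T ht _), hp.h_T, c2, hp.T_T, hp.h_T, hy, h1, hp.T_eq_iff] at g3
  apply he
  have := V1 _ c1 _ g3
  have h2 : e = (lam σ y + 1) * (e / (lam σ y + 1)) := by field_simp
  generalize e / (lam σ y + 1) = w at this h2
  rw [← hV]
  convert this using 1
  grind

/-- If only translations fix the point and some non-trivial one does, then all do. -/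
theorem all_T_of_T (hb : H9.Bin G Ω) (hω : ∃ y : Fˣ, y * σ y = 1 ∧ (y : F) ^ 3 ≠ 1) {p : Ω} (hp : M.Φ p)
    (hl : ∀ c y, M.T ht c • M.h y • p = p → lam σ y = 1) {e : F} (he0 : e ≠ 0) (he : M.T ht e • p = p) (c : F) :
    M.T ht c • p = p := by
  classical
  let S : F → Set Fˣ := fun v => {y | M.T ht v • M.h y • p = M.h y • p}
  have hS : ∀ v y, y ∈ S v ↔ M.T ht v • M.h y • p = M.h y • p := fun _ _ => Iff.rfl
  have S0 : ∀ y, y ∈ S 0 := fun y => (hp.h ht y).T_zero ht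
  have S1 : ∀ {v w y}, y ∈ S v → y ∈ S w → y ∈ S (v + w) := fun {v w y} h1 h2 => by
    rw [hS, ← (hp.h ht y).T_T, h2, h1]
  have S2 : ∀ d v y, d * y ∈ S (lam σ d * v) ↔ y ∈ S v := fun d v y => by
    rw [hS, hS, map_mul, mul_smul, ← (hp.h ht y).h_T, smul_left_cancel_iff]
  have S2' : ∀ d v, (S (lam σ d * v)).ncard = (S v).ncard := fun d v => by
    refine (Set.ncard_congr (fun y _ => d * y) (fun y hy => (S2 d v y).2 hy) (fun a b _ _ h => mul_left_cancel h)
      (fun y hy => ⟨d⁻¹ * y, ?_, by simp⟩)).symm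
    rw [← S2 d, mul_inv_cancel_left]
    exact hy
  obtain ⟨v, hv0, hv⟩ := Set.exists_max_image {v : F | v ≠ 0} (fun v => (S v).ncard) (Set.toFinite _) ⟨e, he0⟩
  have hne : (S v).Nonempty := by
    rw [← Set.ncard_pos]
    refine lt_of_lt_of_le ?_ (hv e he0)
    rw [Set.ncard_pos]
    exact ⟨1, by rw [hS, map_one, one_smul, he]⟩
  have S3 : ∀ d d', lam σ d' = 1 + lam σ d → S v ⊆ S (lam σ d * v) := by
    intro d d' hd
    have e2 : lam σ d' * v = v + lam σ d * v := by rw [hd]; ring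
    have c1 := S2' d v
    have c2 := S2' d' v
    rw [e2] at c2
    generalize lam σ d * v = w at *
    let J : Fˣ → Ω := fun y => if y ∈ S (v + w) then M.T ht v • M.h y • p else M.h y • p
    have J1 : ∀ y ∈ S v, J y = M.h y • p := fun y hy => by
      simp only [J]
      split_ifs
      exacts [hy, rfl]
    have J2 : ∀ y ∈ S w, J y = M.h y • p := fun y hy => by
      simp only [J]
      split_ifs with h
      · have := S1 h hy
        rwa [add_assoc, CharTwo.add_self_eq_zero, add_zero] at this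
      · rfl
    have J3 : ∀ y ∈ S (v + w), J y = M.T ht v • M.h y • p := fun y hy => if_pos hy
    have J4 : ∀ y ∈ S (v + w), J y = M.T ht w • M.h y • p := fun y hy => by
      rw [J3 y hy, (hp.h ht y).T_eq_iff]
      exact hy
    obtain ⟨g, hg⟩ := hb.family (ι := ↥(S v ∪ S w ∪ S (v + w))) (fun y => M.h y • p) (fun y => J y) (by
      rintro ⟨a, (ha | ha) | ha⟩ ⟨b, (hb | hb) | hb⟩
      · exact ⟨1, by simp [J1 a ha, J1 b hb]⟩
      · exact ⟨1, by simp [J1 a ha, J2 b hb]⟩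
      · exact ⟨M.T ht v, by rw [J1 a ha]; exact ha, (J3 b hb).symm⟩
      · exact ⟨1, by simp [J2 a ha, J1 b hb]⟩
      · exact ⟨1, by simp [J2 a ha, J2 b hb]⟩
      · exact ⟨M.T ht w, by rw [J2 a ha]; exact ha, (J4 b hb).symm⟩
      · exact ⟨M.T ht v, (J3 a ha).symm, by rw [J1 b hb]; exact hb⟩
      · exact ⟨M.T ht w, (J4 a ha).symm, by rw [J2 b hb]; exact hb⟩
      · exact ⟨M.T ht v, (J3 a ha).symm, (J3 b hb).symm⟩)
    obtain ⟨g', gB, hg'⟩ := corr ht (M := M) (fun y => hp.h ht _) (fun y => by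
      simp only [J]
      split_ifs
      exacts [(hp.h ht _).T ht _, hp.h ht _]) hg
    obtain ⟨c, y', e'⟩ := exists_Th ht (Ω := Ω) gB
    have g1 : ∀ y ∈ S v ∪ S w ∪ S (v + w), M.T ht c • M.h y' • M.h y • p = J y := fun y hy => by
      rw [← e' _ (hp.h ht y)]
      exact hg' ⟨y, hy⟩
    obtain ⟨y₀, hy₀⟩ := hne
    have h1 : M.h y' = 1 := by
      refine M.h_one _ (hl (lam σ y₀⁻¹ * c) y' ?_)
      have h2 : M.h y₀⁻¹ • M.T ht c • M.h y' • M.h y₀ • p = M.h y₀⁻¹ • M.h y₀ • p := by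
        rw [(g1 y₀ (Or.inl (Or.inl hy₀))).trans (J1 y₀ hy₀)]
      rwa [h_comm y', ((hp.h ht y').h ht y₀).h_T, map_inv, inv_smul_smul, inv_smul_smul] at h2
    simp only [h1, one_smul] at g1
    by_cases hc : c = 0
    · have h2 : S (v + w) ⊆ S v := fun y hy => by
        have := g1 y (Or.inr hy)
        rw [hc, (hp.h ht y).T_zero, J3 y hy] at this
        exact this.symm
      have h3 := Set.eq_of_subset_of_ncard_le h2 c2.ge
      intro y hy
      have := S1 hy (h3 ▸ hy : y ∈ S (v + w))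
      rwa [← add_assoc, CharTwo.add_self_eq_zero, zero_add] at this
    · have h2 : S v ⊆ S c := fun y hy => (g1 y (Or.inl (Or.inl hy))).trans (J1 y hy)
      have h3 : S w ⊆ S c := fun y hy => (g1 y (Or.inl (Or.inr hy))).trans (J2 y hy)
      rw [← Set.eq_of_subset_of_ncard_le h2 (hv c hc)] at h3
      exact (Set.eq_of_subset_of_ncard_le h3 c1.ge).ge
  have S4 : ∀ d, S v ⊆ S (lam σ d * v) → ∀ c, S v ⊆ S c → S v ⊆ S (lam σ d * c) := by
    intro d hd c hc y hy
    rw [Set.eq_of_subset_of_ncard_le hd (S2' d v).le] at hy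
    rw [← mul_inv_cancel_left d y] at hy ⊢
    exact (S2 ..).2 (hc ((S2 ..).1 hy))
  have S5 : ∀ α : F, σ α = α → ∀ c, S v ⊆ S c → S v ⊆ S (α * c) := by
    intro α hα c hc
    by_cases h0 : α = 0
    · rw [h0, zero_mul]; exact fun y _ => S0 y
    by_cases h1 : α = 1
    · rwa [h1, one_mul]
    have h2 : 1 + α ≠ 0 := fun h => h1 (by grind)
    have h3 : lam σ (Units.mk0 α h0) = α := lam_fix hα
    rw [← h3]
    exact S4 _ (S3 _ (Units.mk0 _ h2) (by rw [h3]; exact lam_fix (by simp [hα]))) c hc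
  obtain ⟨y, y1, y2⟩ := hω
  have hy0 := y.ne_zero
  have y3 : σ y = (y : F)⁻¹ := eq_inv_of_mul_eq_one_right y1
  have y4 : lam σ y = (y : F) ^ 3 := by rw [lam, y3]; field_simp
  generalize hω' : (y : F) ^ 3 = ω at y2 y4
  have ω1 : ω * σ ω = 1 := by rw [← hω', map_pow, ← mul_pow, y1, one_pow]
  have τ0 : ω + σ ω ≠ 0 := fun h => y2 (by grind)
  have S6 : S v ⊆ S (ω * ω * v) := by
    have := S3 (y * y) (Units.mk0 _ τ0 * y) (by
      rw [lam_mul, lam_mul, y4, lam_fix (by simp [hσ.out, add_comm])]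
      simp only [Units.val_mk0]
      grind)
    rwa [lam_mul, y4] at this
  have τ1 : ω * ω + σ ω * σ ω ≠ 0 := fun h => τ0 (by grind)
  have S7 : ∀ c, S v ⊆ S c := by
    intro c y hy
    have hv0' : v ≠ 0 := hv0
    obtain ⟨β, hβ⟩ : ∃ β, β * (ω * ω + σ ω * σ ω) = c / v + σ (c / v) := ⟨_, div_mul_cancel₀ _ τ1⟩
    have β1 : σ β = β := by
      have h1 := congrArg σ hβ
      simp only [map_mul, map_add, hσ.out] at h1
      exact mul_right_cancel₀ τ1 (by grind)
    have h1 := S1 (S5 (c / v + β * (ω * ω)) (by simp only [map_add, map_mul, β1]; grind) v le_rfl hy)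
      (S5 β β1 _ S6 hy)
    convert h1 using 2
    have : c = c / v * v := by field_simp
    grind
  obtain ⟨y₀, hy₀⟩ := hne
  have := S7 (lam σ y₀ * c) hy₀
  rwa [hS, ← hp.h_T, smul_left_cancel_iff] at this

end Model

end Cfsg.Agent.BU
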