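import Cfsg.Agent.BU.Mat

/-!
Binary coset actions of the three-dimensional unitary groups in characteristic two, with point stabilisers of even
order.
-/

set_option autoImplicit false

namespace Cfsg.Agent.BU

open Cfsg.Agent.H5.U3Syl

theorem psu_bin {F : Type*} [Field F] [Fintype F] {a : ℕ} (ha : 2 ≤ a) (hF : Fintype.card F = (2 ^ a) ^ 2)
    [IsSimpleGroup (PSU 3 F (2 ^ a))]
    (hone : ∀ s t : PSU 3 F (2 ^ a), s ≠ 1 → s * s = 1 → t ≠ 1 → t * t = 1 → ∃ c, c * s * c⁻¹ = t)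
    (H : Subgroup (PSU 3 F (2 ^ a))) (hH : H ≠ ⊤) (he : Even (Nat.card H)) :
    H9.Bin (PSU 3 F (2 ^ a)) (PSU 3 F (2 ^ a) ⧸ H) ↔ ∃ P : Sylow 2 (PSU 3 F (2 ^ a)),
      H = (Subgroup.center (P : Subgroup (PSU 3 F (2 ^ a)))).map (P : Subgroup (PSU 3 F (2 ^ a))).subtype := by
  haveI : CharP F 2 := by
    obtain ⟨p, hp⟩ := CharP.exists F
    obtain ⟨k, h1, h2⟩ := FiniteField.card F p
    have : p ∣ 2 ^ (a * 2) := by
      rw [pow_mul, ← hF, h2]
      exact dvd_pow_self p k.ne_zero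
    rwa [(Nat.prime_dvd_prime_iff_eq h1 Nat.prime_two).1 (h1.dvd_of_dvd_pow this)] at hp
  have hq : ∀ x, iterateFrobenius F 2 a x = x ^ 2 ^ a := fun x => rfl
  haveI hσ : Fact (∀ x, iterateFrobenius F 2 a (iterateFrobenius F 2 a x) = x) := ⟨fun x => by
    rw [hq, hq, ← pow_mul, ← sq, ← hF, FiniteField.pow_card]⟩
  have h4 : 4 ≤ 2 ^ a := le_trans (by norm_num) (Nat.pow_le_pow_right (by norm_num) ha)
  have h2 : 2 < 2 ^ a := by omega
  generalize iterateFrobenius F 2 a = σ at hq hσ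
  generalize 2 ^ a = q at *
  obtain ⟨-, h3⟩ := card_ker hq hF h2
  obtain ⟨x, hx⟩ := h3 1 (map_one σ)
  obtain ⟨M⟩ := exists_model hq hx
  refine M.bin_iff (fun c => ?_) (fun u hu => (mem_center hq hF h2).1 (Subgroup.mem_center_iff.2 hu)) ?_
    (exists_fix hq hF h2) ?_ hone H hH he
  · obtain ⟨b, hb⟩ := h3 (c * σ c) (by rw [map_mul, hσ.out, mul_comm])
    exact ⟨⟨c, b, hb⟩, rfl⟩
  · rw [card_PP hq hF h2, Nat.card_eq_fintype_card, hF]
    exact Nat.pow_lt_pow_right (by omega) (by norm_num)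
  · by_contra h
    push Not at h
    have h5 := (FiniteField.forall_pow_eq_one_iff F ((q - 1) * 3)).1 fun w => by
      have h0 := s_ne (σ := σ) w
      have h1 := w.ne_zero
      have h6 := h (Units.mk0 _ h0 * w⁻¹) (by
        simp only [Units.val_mul, Units.val_mk0, Units.val_inv_eq_inv_val, map_mul, map_inv₀, hσ.out]
        field_simp)
      rw [pow_mul]
      refine Units.ext ?_
      rw [Units.val_one, ← h6, Units.val_pow_eq_pow_val]
      congr 1
      obtain ⟨r, rfl⟩ : ∃ r, q = r + 1 := ⟨q - 1, by omega⟩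
      simp [hq, pow_succ, mul_assoc]
    rw [hF] at h5
    obtain ⟨r, rfl⟩ : ∃ r, q = r + 1 := ⟨q - 1, by omega⟩
    have h6 := Nat.le_of_dvd (by omega) h5
    have h7 : (r + 1) ^ 2 = r * (r + 2) + 1 := by ring
    rw [h7, Nat.add_sub_cancel, Nat.add_sub_cancel] at h6
    nlinarith

end Cfsg.Agent.BU
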