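import Cfsg.Agent.BU.Top

/-!
The unitary group in dimension three and characteristic two is a model; its binary coset actions.
-/

set_option autoImplicit false
set_option linter.unusedSectionVars false
set_option linter.unusedSimpArgs false

namespace Cfsg.Agent.BU

open MulAction Cfsg.Agent.H5.U3Syl Matrix
open scoped MatrixGroups

variable {F : Type*} [Field F] [CharP F 2] {σ : F →+* F} [hσ : Fact (∀ x, σ (σ x) = x)]

/-- The antidiagonal matrix. -/
def JJ : Matrix (Fin 3) (Fin 3) F := !![0, 0, 1; 0, 1, 0; 1, 0, 0]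

variable (σ) in
/-- The unitary group of the antidiagonal form. -/
def UU : Subgroup SL(3, F) where
  carrier := {B | B.1ᵀ * JJ * B.1.map σ = JJ}
  one_mem' := by simp
  mul_mem' := fun {B C} (h : B.1ᵀ * JJ * B.1.map σ = JJ) (h' : C.1ᵀ * JJ * C.1.map σ = JJ) =>
    show (B.1 * C.1)ᵀ * JJ * (B.1 * C.1).map σ = JJ by
      rw [transpose_mul, Matrix.map_mul, Matrix.mul_assoc C.1ᵀ, Matrix.mul_assoc C.1ᵀ,
        ← Matrix.mul_assoc (B.1ᵀ * JJ), h, ← Matrix.mul_assoc, h']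
  inv_mem' := fun {B} (h : B.1ᵀ * JJ * B.1.map σ = JJ) => show (B⁻¹).1ᵀ * JJ * (B⁻¹).1.map σ = JJ by
    have h1 : B.1 * (B⁻¹).1 = 1 := congrArg Subtype.val (mul_inv_cancel B)
    conv_lhs => rw [← h]
    rw [← Matrix.mul_assoc, ← Matrix.mul_assoc, ← transpose_mul, Matrix.mul_assoc, Matrix.mul_assoc,
      ← Matrix.map_mul, h1]
    simp

theorem UU_ext {A B : UU σ} (h : A.1.1 = B.1.1) : A = B := Subtype.ext (Subtype.ext h)

theorem UU_mul (A B : UU σ) : (A * B).1.1 = A.1.1 * B.1.1 := rfl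

/-- Unipotent matrices. -/
def mx (u : PP σ) : Matrix (Fin 3) (Fin 3) F := !![1, u.a, u.b; 0, 1, σ u.a; 0, 0, 1]

theorem mx_det (u : PP σ) : (mx u).det = 1 := by simp [mx, det_fin_three]

theorem mx_un (u : PP σ) : (mx u)ᵀ * JJ * (mx u).map σ = JJ := by
  have := u.rel
  ext i j
  fin_cases i <;> fin_cases j <;> simp [mx, JJ, mul_apply, Fin.sum_univ_three, hσ.out] <;> grind

theorem mx_mul (u v : PP σ) : mx (u * v) = mx u * mx v := by
  ext i j
  fin_cases i <;> fin_cases j <;> simp [mx, mul_apply, Fin.sum_univ_three] <;> ring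

/-- Unipotent elements. -/
def xm : PP σ →* UU σ where
  toFun u := ⟨⟨mx u, mx_det u⟩, mx_un u⟩
  map_one' := UU_ext (show mx 1 = 1 by simp [mx, one_fin_three])
  map_mul' u v := UU_ext (mx_mul u v)

theorem xm_val (u : PP σ) : (xm u).1.1 = !![1, u.a, u.b; 0, 1, σ u.a; 0, 0, 1] := rfl

variable (σ) in
/-- Diagonal matrices. -/
def mh (y : Fˣ) : Matrix (Fin 3) (Fin 3) F := !![(y : F), 0, 0; 0, σ y / y, 0; 0, 0, (σ y)⁻¹]

theorem mh_det (y : Fˣ) : (mh σ y).det = 1 := by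
  have := s_ne (σ := σ) y
  simp [mh, det_fin_three]
  field_simp

theorem mh_un (y : Fˣ) : (mh σ y)ᵀ * JJ * (mh σ y).map σ = JJ := by
  have := s_ne (σ := σ) y
  ext i j
  fin_cases i <;> fin_cases j <;> simp [mh, JJ, mul_apply, Fin.sum_univ_three, hσ.out, this]

theorem mh_mul (y z : Fˣ) : mh σ (y * z) = mh σ y * mh σ z := by
  ext i j
  fin_cases i <;> fin_cases j <;> simp [mh, mul_apply, Fin.sum_univ_three] <;> ring

/-- Diagonal elements. -/
def hm : Fˣ →* UU σ where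
  toFun y := ⟨⟨mh σ y, mh_det y⟩, mh_un y⟩
  map_one' := UU_ext (show mh σ 1 = 1 by simp [mh, one_fin_three])
  map_mul' y z := UU_ext (mh_mul y z)

theorem hm_val (y : Fˣ) : (hm (σ := σ) y).1.1 = !![(y : F), 0, 0; 0, σ y / y, 0; 0, 0, (σ y)⁻¹] := rfl

variable (σ) in
/-- The Weyl element. -/
def nm : UU σ := ⟨⟨JJ, by simp [JJ, det_fin_three, CharTwo.neg_eq]⟩, by
  show _ * _ * _ = _
  ext i j
  fin_cases i <;> fin_cases j <;> simp [JJ, mul_apply, Fin.sum_univ_three]⟩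

theorem nm_val : (nm σ).1.1 = !![0, 0, 1; 0, 1, 0; 1, 0, 0] := rfl

theorem nm_sq : nm σ * nm σ = 1 := UU_ext (by simp [UU_mul, nm_val, one_fin_three])

theorem hm_xm (y : Fˣ) (u : PP σ) : hm y * xm u = xm (act y u) * hm y := UU_ext (by
  have := s_ne (σ := σ) y
  have := y.ne_zero
  rw [UU_mul, UU_mul, hm_val, xm_val, xm_val]
  ext i j
  fin_cases i <;> fin_cases j <;> simp [mul_apply, Fin.sum_univ_three, act, lam, hσ.out] <;> field_simp)

theorem borel_UU {A : UU σ} (h2 : A.1.1 2 0 = 0) : ∃ u y, A = xm u * hm y := by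
  have h : A.1.1ᵀ * JJ * A.1.1.map σ = JJ := A.2
  have h0 := congrFun₂ h 0 0
  have h3 := congrFun₂ h 0 1
  have h4 := congrFun₂ h 0 2
  have h5 := congrFun₂ h 1 2
  have h6 := congrFun₂ h 2 2
  have h7 := A.1.2
  have h1 : A.1.1 1 0 = 0 := by simpa [JJ, mul_apply, Fin.sum_univ_three, h2] using h0
  rw [det_fin_three, h1, h2] at h7
  simp [JJ, mul_apply, Fin.sum_univ_three, h1, h2] at h3 h4 h5 h6
  have h8 := right_ne_zero_of_mul_eq_one h4
  have h9 := (map_ne_zero σ).1 h8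
  have h10 := left_ne_zero_of_mul_eq_one h4
  have h11 : A.1.1 2 1 = 0 := h3.resolve_left h10
  have h12 := congrArg σ h4
  have h13 := congrArg σ h5
  simp only [map_mul, map_add, hσ.out, map_one, map_zero] at h12 h13
  have h14 : σ (A.1.1 0 0) ≠ 0 := (map_ne_zero σ).2 h10
  refine ⟨⟨σ (A.1.1 1 2 / A.1.1 2 2), A.1.1 0 2 / A.1.1 2 2, ?_⟩, Units.mk0 _ h10, UU_ext ?_⟩
  · simp only [map_div₀, hσ.out]; grind
  · rw [UU_mul, hm_val, xm_val]
    have e1 : (σ (A.1.1 0 0))⁻¹ = A.1.1 2 2 := inv_eq_of_mul_eq_one_right h12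
    have e2 : σ (A.1.1 0 0) / A.1.1 0 0 = A.1.1 1 1 := by
      rw [h11] at h7
      rw [div_eq_iff h10]
      linear_combination A.1.1 0 0 * A.1.1 1 1 * h12 - σ (A.1.1 0 0) * h7
    have e3 : A.1.1 0 1 = σ (A.1.1 1 2) / σ (A.1.1 2 2) * A.1.1 1 1 := by
      rw [h11] at h5
      field_simp
      grind
    ext i j
    fin_cases i <;> fin_cases j <;> simp [mul_apply, Fin.sum_univ_three, hσ.out, e1, e2, h1, h2, h11, h9]
    exact e3

theorem bruhat_UU (A : UU σ) : (∃ u y, A = xm u * hm y) ∨ ∃ u v y, A = xm u * nm σ * (xm v * hm y) := by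
  by_cases h0 : A.1.1 2 0 = 0
  · exact Or.inl (borel_UU h0)
  right
  have h : A.1.1ᵀ * JJ * A.1.1.map σ = JJ := A.2
  have h1 := congrFun₂ h 0 0
  simp [JJ, mul_apply, Fin.sum_univ_three] at h1
  have := (map_ne_zero σ).2 h0
  let u : PP σ := ⟨σ (A.1.1 1 0 / A.1.1 2 0), A.1.1 0 0 / A.1.1 2 0, by simp only [map_div₀, hσ.out]; grind⟩
  obtain ⟨v, y, e⟩ := borel_UU (A := nm σ * xm u⁻¹ * A) (by
    rw [UU_mul, UU_mul, nm_val, xm_val]
    simp [mul_apply, Fin.sum_univ_three, u]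
    grind)
  refine ⟨u, v, y, ?_⟩
  rw [← e, map_inv, mul_assoc, ← mul_assoc (nm σ), ← mul_assoc (nm σ), nm_sq]
  simp

theorem center_lower {c : UU σ} (hc : c ∈ Subgroup.center (UU σ)) : c.1.1 2 0 = 0 := by
  have h := congrArg (fun A : UU σ => A.1.1 2 2)
    (Subgroup.mem_center_iff.1 hc (xm ⟨0, 1, by simp [CharTwo.add_self_eq_zero]⟩))
  simpa [UU_mul, xm_val, mul_apply, Fin.sum_univ_three] using h

variable {G : Type*} [Group G] (φ : UU σ →* G) (hs : Function.Surjective φ)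
  (hk : ∀ A, φ A = 1 ↔ A ∈ Subgroup.center (UU σ))

include hk in
theorem lower {A : UU σ} {v : PP σ} {y : Fˣ} (h : φ A = φ (xm v) * φ (hm y)) : A.1.1 2 0 = 0 := by
  have h1 := center_lower ((hk ((xm v * hm y)⁻¹ * A)).1 (by rw [map_mul, map_inv, map_mul, h, inv_mul_cancel]))
  have h2 : A = xm v * hm y * ((xm v * hm y)⁻¹ * A) := by rw [mul_inv_cancel_left]
  generalize (xm v * hm y)⁻¹ * A = c at h1 h2
  rw [h2, UU_mul, UU_mul, xm_val, hm_val]
  simp [mul_apply, Fin.sum_univ_three, h1]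

/-- The model attached to a quotient by the centre. -/
def model : Model σ G where
  x := φ.comp xm
  h := φ.comp hm
  n := φ (nm σ)
  conj y u := by
    simp only [MonoidHom.comp_apply]
    rw [← map_mul, hm_xm, map_mul, mul_inv_cancel_right]
  h_one y hy := (hk _).2 (Subgroup.mem_center_iff.2 fun B => UU_ext (by
    have h0 := s_ne (σ := σ) y
    have h1 := y.ne_zero
    have h2 : σ y = (y : F) ^ 2 := by rw [lam, div_eq_one_iff_eq h0] at hy; exact hy.symm
    have h3 := congrArg σ h2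
    rw [hσ.out, map_pow, h2] at h3
    have h4 : (hm (σ := σ) y).1.1 = scalar _ (y : F) := by
      rw [hm_val, h2]
      ext i j
      fin_cases i <;> fin_cases j <;> simp <;> grind
    rw [UU_mul, UU_mul, h4, (scalar_commute _ (Commute.all _) _).eq]))
  n_sq := by rw [← map_mul, nm_sq, map_one]
  n_h y := ⟨(Units.mk0 _ (s_ne (σ := σ) y))⁻¹, by
    simp only [MonoidHom.comp_apply]
    rw [← map_mul, ← map_mul]
    congr 1
    refine UU_ext ?_
    rw [UU_mul, UU_mul, nm_val, hm_val, hm_val]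
    ext i j
    fin_cases i <;> fin_cases j <;> simp [mul_apply, Fin.sum_univ_three, hσ.out]
    rw [div_eq_inv_mul]⟩
  bruhat g := by
    obtain ⟨A, rfl⟩ := hs g
    rcases bruhat_UU A with ⟨u, y, rfl⟩ | ⟨u, v, y, rfl⟩
    · exact Or.inl ⟨u, y, by simp⟩
    · exact Or.inr ⟨u, v, y, by simp⟩
  n_ne u y h := by simpa [nm_val] using lower φ hk h
  ti u v y h := by
    have h1 := lower φ hk (A := nm σ * xm u * nm σ) (by simpa using h)
    rw [UU_mul, UU_mul, nm_val, xm_val] at h1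
    have h2 : u.b = 0 := by simpa [mul_apply, Fin.sum_univ_three] using h1
    have h3 := u.rel
    exact PP.ext (by simpa [h2] using h3) h2

theorem exists_equiv_UU [Fintype F] {q : ℕ} (hq : ∀ x, σ x = x ^ q) {x : F} (hx : x + σ x = 1) :
    Nonempty (UU σ ≃* SU 3 F q) := by
  obtain ⟨P, P', h1, h2⟩ : ∃ P P' : Matrix (Fin 3) (Fin 3) F, P * P' = 1 ∧ Pᵀ * P.map σ = JJ :=
    ⟨!![1, 0, x; 1, 0, 1 + x; 0, 1, 0], !![1 + x, x, 0; 0, 0, 1; 1, 1, 0], by
      simp [one_fin_three]; grind, by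
      ext i j; fin_cases i <;> fin_cases j <;> simp [JJ, mul_apply, Fin.sum_univ_three] <;> grind⟩
  have h3 := mul_eq_one_comm.1 h1
  have h4 : P'ᵀ * (JJ * P'.map σ) = 1 := by
    rw [← h2, Matrix.mul_assoc, ← Matrix.map_mul, h1, ← Matrix.mul_assoc, ← transpose_mul, h1]; simp
  have h5 : P.det * P'.det = 1 := by rw [← det_mul, h1, det_one]
  have h6 : ∀ X : Matrix (Fin 3) (Fin 3) F, P' * (P * X) = X := fun X => by rw [← Matrix.mul_assoc, h3, Matrix.one_mul]
  have h7 : ∀ X : Matrix (Fin 3) (Fin 3) F, P * (P' * X) = X := fun X => by rw [← Matrix.mul_assoc, h1, Matrix.one_mul]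
  exact ⟨{
    toFun := fun B => ⟨⟨P * B.1.1 * P', by simp [h5]⟩, (mem_SU_iff hq _).2 (by
      have h : B.1.1ᵀ * JJ * B.1.1.map σ = JJ := B.2
      simp only [transpose_mul, Matrix.map_mul, Matrix.mul_assoc]
      rw [← Matrix.mul_assoc Pᵀ, h2, ← Matrix.mul_assoc JJ, ← Matrix.mul_assoc B.1.1ᵀ,
        ← Matrix.mul_assoc B.1.1ᵀ, h, h4])⟩
    invFun := fun A => ⟨⟨P' * A.1.1 * P, by simp [mul_comm, h5]⟩, by
      have := (mem_SU_iff hq A.1).1 A.2
      show _ * _ * _ = _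
      simp only [transpose_mul, Matrix.map_mul, Matrix.mul_assoc]
      rw [← Matrix.mul_assoc JJ, ← Matrix.mul_assoc P'ᵀ, h4, Matrix.one_mul, ← Matrix.mul_assoc A.1.1ᵀ,
        this, Matrix.one_mul, h2]⟩
    left_inv := fun B => UU_ext (by simp [Matrix.mul_assoc, h6, h3])
    right_inv := fun A => Subtype.ext (Subtype.ext (by simp [Matrix.mul_assoc, h7, h1]))
    map_mul' := fun B C => Subtype.ext (Subtype.ext (show P * (B.1.1 * C.1.1) * P' = P * B.1.1 * P' * (P * C.1.1 * P') by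
      simp [Matrix.mul_assoc, h6])) }⟩

theorem exists_model [Fintype F] {q : ℕ} (hq : ∀ x, σ x = x ^ q) {x : F} (hx : x + σ x = 1) :
    Nonempty (Model σ (PSU 3 F q)) := by
  obtain ⟨e⟩ := exists_equiv_UU hq hx
  refine ⟨model ((QuotientGroup.mk' _).comp e.toMonoidHom) ((QuotientGroup.mk'_surjective _).comp e.surjective)
    fun A => ?_⟩
  refine (QuotientGroup.eq_one_iff _).trans ?_
  rw [Subgroup.mem_center_iff, Subgroup.mem_center_iff]
  constructor
  · intro h B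
    exact e.injective (by rw [map_mul, map_mul]; exact h _)
  · intro h B
    obtain ⟨C, rfl⟩ := e.surjective B
    exact (map_mul e C A).symm.trans ((congrArg e (h C)).trans (map_mul e A C))

end Cfsg.Agent.BU
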