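import Cfsg.Agent.BU.RK
import Cfsg.Agent.H5.U3Syl

/-!
A model of the three-dimensional unitary group in characteristic two.
-/

set_option autoImplicit false
set_option linter.unusedSectionVars false
set_option linter.unusedSimpArgs false

namespace Cfsg.Agent.BU

open MulAction Cfsg.Agent.H5.U3Syl

variable {F : Type*} [Field F] [CharP F 2] {σ : F →+* F} [hσ : Fact (∀ x, σ (σ x) = x)]

theorem s_ne (y : Fˣ) : σ y ≠ 0 := (map_ne_zero σ).2 y.ne_zero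

variable (σ) in
/-- The multiplier of a torus element. -/
def lam (y : Fˣ) : F := (y : F) ^ 2 / σ y

theorem lam_ne (y : Fˣ) : lam σ y ≠ 0 := div_ne_zero (pow_ne_zero _ y.ne_zero) (s_ne y)

theorem lam_mul (y z : Fˣ) : lam σ (y * z) = lam σ y * lam σ z := by
  have := s_ne (σ := σ) y
  have := s_ne (σ := σ) z
  simp only [lam, Units.val_mul, map_mul]
  field_simp

theorem lam_one : lam σ 1 = 1 := by simp [lam]

theorem lam_inv (y : Fˣ) : lam σ y⁻¹ = (lam σ y)⁻¹ :=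
  eq_inv_of_mul_eq_one_left (by rw [← lam_mul, inv_mul_cancel, lam_one])

theorem lam_fix {y : Fˣ} (h : σ y = y) : lam σ y = y := by
  rw [lam, h, pow_two, mul_div_assoc, div_self y.ne_zero, mul_one]

/-- The action of the torus on the unipotent group. -/
def act (y : Fˣ) (u : PP σ) : PP σ := ⟨lam σ y * u.a, y * σ y * u.b, by
  have := s_ne (σ := σ) y
  have h := u.rel
  simp only [lam, map_mul, map_div₀, map_pow, hσ.out]
  field_simp
  linear_combination h⟩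

@[simp] theorem act_a (y : Fˣ) (u : PP σ) : (act y u).a = lam σ y * u.a := rfl

variable (σ) in
/-- The model. -/
structure Model (G : Type*) [Group G] where
  x : PP σ →* G
  h : Fˣ →* G
  n : G
  conj : ∀ y u, h y * x u * (h y)⁻¹ = x (act y u)
  h_one : ∀ y, lam σ y = 1 → h y = 1
  n_sq : n * n = 1
  n_h : ∀ y, ∃ y', n * h y * n = h y'
  bruhat : ∀ g, (∃ u y, g = x u * h y) ∨ ∃ u v y, g = x u * n * (x v * h y)
  n_ne : ∀ u y, n ≠ x u * h y
  ti : ∀ u v y, n * x u * n = x v * h y → u = 1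

namespace Model

variable {G : Type*} [Group G] (M : Model σ G)

theorem h_mul_x (y : Fˣ) (u : PP σ) : M.h y * M.x u = M.x (act y u) * M.h y := by
  rw [← M.conj, inv_mul_cancel_right]

/-- The Borel subgroup. -/
def B : Subgroup G where
  carrier := {g | ∃ u y, g = M.x u * M.h y}
  one_mem' := ⟨1, 1, by simp⟩
  mul_mem' := by
    rintro _ _ ⟨u, y, rfl⟩ ⟨v, z, rfl⟩
    exact ⟨u * act y v, y * z, by rw [map_mul, map_mul, mul_assoc, ← mul_assoc (M.h y), h_mul_x]; simp [mul_assoc]⟩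
  inv_mem' := by
    rintro _ ⟨u, y, rfl⟩
    exact ⟨act y⁻¹ u⁻¹, y⁻¹, by rw [← h_mul_x, mul_inv_rev, map_inv, map_inv]⟩

/-- The rank one structure. -/
def R : RK G where
  U := M.x.range
  H := M.h.range
  B := M.B
  n := M.n
  mem_B := fun g => ⟨fun ⟨u, y, e⟩ => ⟨_, ⟨u, rfl⟩, _, ⟨y, rfl⟩, e⟩, fun ⟨_, ⟨u, rfl⟩, _, ⟨y, rfl⟩, e⟩ => ⟨u, y, e⟩⟩
  conj_mem := by
    rintro _ ⟨y, rfl⟩ _ ⟨u, rfl⟩
    exact ⟨_, (M.conj y u).symm⟩
  n_sq := M.n_sq
  n_conj := by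
    rintro _ ⟨y, rfl⟩
    obtain ⟨y', e⟩ := M.n_h y
    exact ⟨y', e.symm⟩
  bruhat := fun g => by
    rcases M.bruhat g with h | ⟨u, v, y, e⟩
    · exact Or.inl h
    · exact Or.inr ⟨_, ⟨u, rfl⟩, _, ⟨v, y, rfl⟩, e⟩
  n_not_mem := fun ⟨u, y, e⟩ => M.n_ne u y e
  ti := by
    rintro _ ⟨u, rfl⟩ ⟨v, y, e⟩
    rw [M.ti u v y e, map_one]

theorem x_mem (u : PP σ) : M.x u ∈ M.R.U := ⟨u, rfl⟩
theorem h_mem (y : Fˣ) : M.h y ∈ M.R.H := ⟨y, rfl⟩
theorem x_mem_B (u : PP σ) : M.x u ∈ M.B := ⟨u, 1, by simp⟩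
theorem h_mem_B (y : Fˣ) : M.h y ∈ M.B := ⟨1, y, by simp⟩

theorem x_eq_one {u : PP σ} (h : M.x u = 1) : u = 1 := M.ti u 1 1 (by simp [h, M.n_sq])

theorem x_inj : Function.Injective M.x := (injective_iff_map_eq_one _).2 fun _ h => M.x_eq_one h

/-- The root subgroup. -/
def Z : Subgroup G where
  carrier := {g | ∃ u : PP σ, u.a = 0 ∧ M.x u = g}
  one_mem' := ⟨1, rfl, map_one _⟩
  mul_mem' := by
    rintro _ _ ⟨u, hu, rfl⟩ ⟨v, hv, rfl⟩
    exact ⟨u * v, by simp [hu, hv], map_mul _ _ _⟩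
  inv_mem' := by
    rintro _ ⟨u, hu, rfl⟩
    exact ⟨u⁻¹, hu, map_inv _ _⟩

theorem z_mem {u : PP σ} (h : u.a = 0) : M.x u ∈ M.Z := ⟨u, h, rfl⟩

theorem Z_le_U : M.Z ≤ M.R.U := by
  rintro _ ⟨u, -, rfl⟩
  exact M.x_mem u

theorem Z_sq {z : G} (h : z ∈ M.Z) : z * z = 1 := by
  obtain ⟨u, hu, rfl⟩ := h
  rw [← map_mul, sq_eq_one.2 hu, map_one]

theorem Z_comm {z g : G} (h : z ∈ M.Z) (hg : g ∈ M.R.U) : g * z = z * g := by
  obtain ⟨u, hu, rfl⟩ := h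
  obtain ⟨v, rfl⟩ := hg
  rw [← map_mul, ← map_mul]
  congr 1
  ext <;> simp [hu, add_comm]

/-- The standard involution. -/
def z₀ : G := M.x ⟨0, 1, by simp [CharTwo.add_self_eq_zero]⟩

theorem z₀_mem : M.z₀ ∈ M.Z := M.z_mem rfl

theorem z₀_ne : M.z₀ ≠ 1 := fun h => one_ne_zero (congrArg PP.b (M.x_eq_one h))

theorem U_ne_bot : M.R.U ≠ ⊥ := fun h => M.z₀_ne (Subgroup.mem_bot.1 (h ▸ M.Z_le_U M.z₀_mem))

variable (ht : ∀ a : F, ∃ u : PP σ, u.a = a)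

include ht in
theorem lam_eq_one {y : Fˣ} (h : M.h y = 1) : lam σ y = 1 := by
  obtain ⟨u, hu⟩ := ht 1
  have h1 := M.conj y u
  rw [h, one_mul, inv_one, mul_one] at h1
  have := congrArg PP.a (M.x_inj h1)
  rw [act_a, hu, mul_one] at this
  exact this.symm

include ht in
theorem mem_Z_of_mem_B {g : G} (hg : g ∈ M.B) (h : g * g = 1) : g ∈ M.Z := by
  obtain ⟨u, y, rfl⟩ := hg
  rw [mul_assoc, ← mul_assoc (M.h y), h_mul_x, mul_assoc, ← map_mul, ← mul_assoc, ← map_mul] at h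
  have h1 : M.h (y * y) = 1 := M.R.disj _ (by
    rw [eq_inv_of_mul_eq_one_right h]; exact inv_mem (M.x_mem _)) (M.h_mem _)
  have h2 := M.lam_eq_one ht h1
  rw [lam_mul] at h2
  have h3 : lam σ y = 1 := by grind
  rw [h1, mul_one] at h
  have h4 : act y u = u := M.x_inj (by rw [← M.conj, M.h_one y h3]; simp)
  rw [M.h_one y h3, mul_one]
  exact M.z_mem (sq_eq_one.1 (by rw [h4] at h; exact M.x_eq_one h))

include ht in
theorem conj_mem_Z {b z : G} (hb : b ∈ M.B) (hz : z ∈ M.Z) : b * z * b⁻¹ ∈ M.Z :=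
  M.mem_Z_of_mem_B ht (M.R.U_le_B (M.R.conj_mem_U hb (M.Z_le_U hz))) (by
    calc b * z * b⁻¹ * (b * z * b⁻¹) = b * (z * z) * b⁻¹ := by simp [mul_assoc]
      _ = 1 := by rw [M.Z_sq hz]; simp)

include ht in
/-- Involutions with different centres are conjugate in the group they generate. -/
theorem exists_conj [Finite G] {s t c : G} (hs : s ∈ M.Z) (hs1 : s ≠ 1) (htc : c⁻¹ * t * c ∈ M.Z) (ht1 : t ≠ 1)
    (hc : c ∉ M.B) : ∃ k : ℕ, (s * t) ^ k * s * ((s * t) ^ k)⁻¹ = t := by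
  have ht2 : t * t = 1 := by
    have := M.Z_sq htc
    calc t * t = c * (c⁻¹ * t * c * (c⁻¹ * t * c)) * c⁻¹ := by simp [mul_assoc]
      _ = 1 := by rw [this]; simp
  obtain ⟨k, h | ⟨h1, h2, h3, h4⟩⟩ := H9.involutions_conj_or (M.Z_sq hs) ht2
  · exact ⟨k, h⟩
  exfalso
  generalize (s * t) ^ k = r at *
  have h5 : r ∈ M.Z := M.mem_Z_of_mem_B ht (M.R.mem_B_of_commute (M.Z_le_U hs) hs1 h3.symm) h2
  have h6 : c⁻¹ * r * c ∈ M.Z := M.mem_Z_of_mem_B ht (M.R.mem_B_of_commute (M.Z_le_U htc)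
    (fun e => ht1 (by simpa [mul_assoc, inv_mul_eq_one] using e)) (by simp [mul_assoc, ← h4]; simp [← mul_assoc, h4])) (by
      calc c⁻¹ * r * c * (c⁻¹ * r * c) = c⁻¹ * (r * r) * c := by simp [mul_assoc]
        _ = 1 := by rw [h2]; simp)
  exact hc (inv_mem_iff.1 (M.R.mem_B_of_conj_U (c := c⁻¹) (M.Z_le_U h5) h1 (by
    rw [inv_inv]; exact M.Z_le_U h6)))

theorem isPGroup_U : IsPGroup 2 M.R.U := by
  show IsPGroup 2 M.x.range
  rw [MonoidHom.range_eq_map]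
  exact (isPGroup.to_subgroup ⊤).map _

theorem not_two_dvd_card_H [Fintype F] : ¬ 2 ∣ Nat.card M.R.H := by
  intro h
  have h1 := h.trans (Subgroup.card_range_dvd M.h)
  rw [Nat.card_units] at h1
  have h2 : 2 ∣ Nat.card F := by
    rw [Nat.card_eq_fintype_card]
    exact (ZMod.natCast_eq_zero_iff _ _).1 (by
      obtain ⟨n, -, e⟩ := FiniteField.card F 2
      rw [e]; simp [CharTwo.two_eq_zero])
  have : 1 < Nat.card F := Finite.one_lt_card
  omega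

include ht in
theorem mem_Z_iff (hc : ∀ u : PP σ, (∀ v, v * u = u * v) → u.a = 0) {z : G} :
    z ∈ M.Z ↔ z ∈ M.R.U ∧ ∀ u ∈ M.R.U, u * z = z * u := by
  refine ⟨fun h => ⟨M.Z_le_U h, fun u hu => M.Z_comm h hu⟩, ?_⟩
  rintro ⟨⟨u, rfl⟩, h⟩
  exact M.z_mem (hc u fun v => M.x_inj (by rw [map_mul, map_mul, h _ (M.x_mem v)]))

include ht in
theorem center_iff [Finite G] [Fintype F] (hc : ∀ u : PP σ, (∀ v, v * u = u * v) → u.a = 0) (H : Subgroup G) :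
    (∃ P : Sylow 2 G, H = (Subgroup.center (P : Subgroup G)).map (P : Subgroup G).subtype) ↔
      ∃ c : G, ∀ g, g ∈ H ↔ c⁻¹ * g * c ∈ M.Z := by
  obtain ⟨S, hS⟩ : ∃ S : Sylow 2 G, (S : Subgroup G) = M.R.U :=
    ⟨M.R.sylowU M.isPGroup_U M.U_ne_bot M.not_two_dvd_card_H, rfl⟩
  have h1 : ∀ c g : G, g ∈ ((c • S : Sylow 2 G) : Subgroup G) ↔ c⁻¹ * g * c ∈ M.R.U := by
    intro c g
    rw [Sylow.coe_subgroup_smul, Subgroup.mem_pointwise_smul_iff_inv_smul_mem, hS]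
    simp
  have h2 : ∀ c g : G, g ∈ (Subgroup.center ((c • S : Sylow 2 G) : Subgroup G)).map
      ((c • S : Sylow 2 G) : Subgroup G).subtype ↔ c⁻¹ * g * c ∈ M.Z := by
    intro c g
    rw [M.mem_Z_iff ht hc, ← h1]
    constructor
    · rintro ⟨⟨g, hg⟩, h, rfl⟩
      refine ⟨hg, fun u hu => ?_⟩
      have h4 := congrArg Subtype.val (Subgroup.mem_center_iff.mp h ⟨c * u * c⁻¹, (h1 c _).mpr (by simpa [mul_assoc])⟩)
      simp only [Subgroup.coe_mul, Subgroup.coe_subtype] at h4 ⊢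
      calc u * (c⁻¹ * g * c) = c⁻¹ * (c * u * c⁻¹ * g) * c := by simp [mul_assoc]
        _ = _ := by rw [h4]; simp [mul_assoc]
    · rintro ⟨hg, h⟩
      refine ⟨⟨g, hg⟩, Subgroup.mem_center_iff.mpr fun u => Subtype.ext ?_, rfl⟩
      have h4 := h _ ((h1 c _).mp u.2)
      simp only [Subgroup.coe_mul]
      calc (u : G) * g = c * (c⁻¹ * u * c * (c⁻¹ * g * c)) * c⁻¹ := by simp [mul_assoc]
        _ = _ := by rw [h4]; simp [mul_assoc]
  constructor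
  · rintro ⟨P, rfl⟩
    obtain ⟨c, rfl⟩ := exists_smul_eq G S P
    exact ⟨c, h2 c⟩
  · rintro ⟨c, hc⟩
    exact ⟨c • S, by ext g; rw [hc, h2]⟩

include ht in
theorem bin_of_Z {Ω : Type*} [MulAction G Ω] [IsPretransitive G Ω] {x : Ω} (hx : stabilizer G x = M.Z) :
    H9.Bin G Ω := by
  have key : ∀ (g c : G), g • c • x = c • x ↔ c⁻¹ * g * c ∈ M.Z := fun g c => by
    rw [← hx, mem_stabilizer_iff, mul_smul, mul_smul, inv_smul_eq_iff]
  have ne1 : ∀ (g c : G), g ≠ 1 → c⁻¹ * g * c ≠ 1 := fun g c h e =>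
    h (by simpa [mul_assoc, inv_mul_eq_one] using e)
  have sq : ∀ (g c : G), g • c • x = c • x → g * g = 1 := fun g c h => by
    by_contra h1
    exact ne1 _ c h1 (by simpa [mul_assoc] using M.Z_sq ((key g c).mp h))
  refine H9.bin_of_stabilizers fun x₁ x₂ x₃ a b ha hb hab => ?_
  obtain ⟨c₁, rfl⟩ := exists_smul_eq G x x₁
  obtain ⟨c₂, rfl⟩ := exists_smul_eq G x x₂
  obtain ⟨c₃, rfl⟩ := exists_smul_eq G x x₃
  by_cases ha1 : a = 1
  · right; rw [ha1, one_smul]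
  by_cases hb1 : b = 1
  · right; rw [hab, hb1, one_smul]
  left
  have h1 := sq (b⁻¹ * a) c₃ (by rw [mul_smul, hab, inv_smul_smul])
  have h2 : b * a = a * b := by
    rw [inv_eq_of_mul_eq_one_right (sq b c₂ hb)] at h1
    rw [eq_inv_of_mul_eq_one_left h1, _root_.mul_inv_rev, inv_eq_of_mul_eq_one_right (sq a c₁ ha),
      inv_eq_of_mul_eq_one_right (sq b c₂ hb)]
  have h4 := M.R.mem_B_of_commute (M.Z_le_U ((key a c₁).mp ha)) (ne1 _ c₁ ha1) (g := c₁⁻¹ * b * c₁) (by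
    calc c₁⁻¹ * b * c₁ * (c₁⁻¹ * a * c₁) = c₁⁻¹ * (b * a) * c₁ := by simp [mul_assoc]
      _ = _ := by rw [h2]; simp [mul_assoc])
  have h5 := M.mem_Z_of_mem_B ht h4 (by
    have := sq b c₂ hb
    calc c₁⁻¹ * b * c₁ * (c₁⁻¹ * b * c₁) = c₁⁻¹ * (b * b) * c₁ := by simp [mul_assoc]
      _ = 1 := by rw [this]; simp)
  have h6 : c₂⁻¹ * c₁ ∈ M.B := M.R.mem_B_of_conj_U (M.Z_le_U h5) (ne1 _ c₁ hb1)
    (by simpa [mul_assoc] using M.Z_le_U ((key b c₂).mp hb))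
  ext g
  rw [mem_stabilizer_iff, mem_stabilizer_iff, key, key]
  constructor
  · intro h
    simpa [mul_assoc] using M.conj_mem_Z ht h6 h
  · intro h
    simpa [mul_assoc] using M.conj_mem_Z ht (inv_mem h6) h

end Model

end Cfsg.Agent.BU
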