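import Cfsg.Agent.H9.RankOne
import Cfsg.Agent.H9.GrpLemmas
import Cfsg.Agent.H9.Binary

/-!
Split (B, N)-pairs of rank one in which the Weyl element is an involution normalising the torus.
-/

set_option autoImplicit false
set_option linter.unusedSectionVars false

namespace Cfsg.Agent.BU

open MulAction

structure RK (G : Type*) [Group G] where
  U : Subgroup G
  H : Subgroup G
  B : Subgroup G
  n : G
  mem_B : ∀ g, g ∈ B ↔ ∃ u ∈ U, ∃ h ∈ H, g = u * h
  conj_mem : ∀ h ∈ H, ∀ u ∈ U, h * u * h⁻¹ ∈ U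
  n_sq : n * n = 1
  n_conj : ∀ h ∈ H, n * h * n ∈ H
  bruhat : ∀ g, g ∈ B ∨ ∃ u ∈ U, ∃ b ∈ B, g = u * n * b
  n_not_mem : n ∉ B
  ti : ∀ u ∈ U, n * u * n ∈ B → u = 1

namespace RK

variable {G : Type*} [Group G] (R : RK G)

abbrev Pt := G ⧸ R.B

def inf : R.Pt := ((1 : G) : G ⧸ R.B)
def zero : R.Pt := (R.n : G ⧸ R.B)

theorem U_le_B : R.U ≤ R.B := fun u hu => (R.mem_B u).mpr ⟨u, hu, 1, one_mem _, (mul_one u).symm⟩
theorem H_le_B : R.H ≤ R.B := fun h hh => (R.mem_B h).mpr ⟨1, one_mem _, h, hh, (one_mul h).symm⟩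

theorem disj (g : G) (hu : g ∈ R.U) (hh : g ∈ R.H) : g = 1 := R.ti g hu (R.H_le_B (R.n_conj g hh))

theorem n_inv : R.n⁻¹ = R.n := inv_eq_of_mul_eq_one_right R.n_sq

theorem smul_inf (g : G) : g • R.inf = (g : G ⧸ R.B) := by
  show ((g * 1 : G) : G ⧸ R.B) = _
  rw [mul_one]

theorem smul_inf_eq_iff {g : G} : g • R.inf = R.inf ↔ g ∈ R.B := by
  rw [smul_inf, inf, eq_comm, QuotientGroup.eq]
  simp

theorem n_smul_inf : R.n • R.inf = R.zero := R.smul_inf _

theorem n_smul_zero : R.n • R.zero = R.inf := by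
  rw [← n_smul_inf, smul_smul, R.n_sq, one_smul]

theorem smul_zero_eq_iff {g : G} : g • R.zero = R.zero ↔ R.n * g * R.n ∈ R.B := by
  rw [← smul_inf_eq_iff, mul_smul, mul_smul, n_smul_inf, ← n_smul_zero, smul_left_cancel_iff]

theorem zero_ne_inf : R.zero ≠ R.inf := by
  rw [← n_smul_inf, Ne, smul_inf_eq_iff]
  exact R.n_not_mem

theorem conj_mem_U {b : G} (hb : b ∈ R.B) {u : G} (hu : u ∈ R.U) : b * u * b⁻¹ ∈ R.U := by
  obtain ⟨v, hv, h, hh, rfl⟩ := (R.mem_B b).mp hb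
  have := mul_mem (mul_mem hv (R.conj_mem h hh u hu)) (inv_mem hv)
  simpa [mul_assoc] using this

theorem H_smul_inf {h : G} (hh : h ∈ R.H) : h • R.inf = R.inf := R.smul_inf_eq_iff.mpr (R.H_le_B hh)

theorem U_smul_inf {u : G} (hu : u ∈ R.U) : u • R.inf = R.inf := R.smul_inf_eq_iff.mpr (R.U_le_B hu)

theorem H_smul_zero {h : G} (hh : h ∈ R.H) : h • R.zero = R.zero := by
  rw [smul_zero_eq_iff]
  exact R.H_le_B (R.n_conj h hh)

theorem U_smul_zero {u : G} (hu : u ∈ R.U) (h : u • R.zero = R.zero) : u = 1 :=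
  R.ti u hu (R.smul_zero_eq_iff.mp h)

theorem exists_U {x : R.Pt} (hx : x ≠ R.inf) : ∃ u ∈ R.U, u • R.zero = x := by
  obtain ⟨g, rfl⟩ := QuotientGroup.mk_surjective x
  rcases R.bruhat g with hg | ⟨u, hu, b, hb, rfl⟩
  · exact absurd ((R.smul_inf g).symm.trans (R.smul_inf_eq_iff.mpr hg)) hx
  · refine ⟨u, hu, ?_⟩
    rw [← smul_inf, mul_smul, mul_smul, R.smul_inf_eq_iff.mpr hb, n_smul_inf]

theorem B_smul_ne_inf {b : G} (hb : b ∈ R.B) {x : R.Pt} (hx : x ≠ R.inf) : b • x ≠ R.inf := by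
  intro h
  apply hx
  rw [← R.smul_inf_eq_iff.mpr hb] at h
  exact smul_left_cancel _ h

theorem U_smul_zero_ne_inf {u : G} (hu : u ∈ R.U) : u • R.zero ≠ R.inf :=
  R.B_smul_ne_inf (R.U_le_B hu) R.zero_ne_inf

theorem U_smul_zero_inj {u v : G} (hu : u ∈ R.U) (hv : v ∈ R.U) (h : u • R.zero = v • R.zero) : u = v := by
  have : (v⁻¹ * u) • R.zero = R.zero := by rw [mul_smul, h, inv_smul_smul]
  have := R.U_smul_zero (mul_mem (inv_mem hv) hu) this
  exact (inv_mul_eq_one.mp this).symm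

theorem mem_H_iff {g : G} : g ∈ R.H ↔ g • R.inf = R.inf ∧ g • R.zero = R.zero := by
  refine ⟨fun h => ⟨R.H_smul_inf h, R.H_smul_zero h⟩, fun ⟨h1, h2⟩ => ?_⟩
  obtain ⟨u, hu, h, hh, rfl⟩ := (R.mem_B g).mp (R.smul_inf_eq_iff.mp h1)
  rw [mul_smul, R.H_smul_zero hh] at h2
  rw [R.U_smul_zero hu h2, one_mul]
  exact hh

theorem trans (x : R.Pt) : ∃ g : G, g • R.inf = x := by
  obtain ⟨g, rfl⟩ := QuotientGroup.mk_surjective x
  exact ⟨g, R.smul_inf g⟩

theorem U_fix {u : G} (hu : u ∈ R.U) (hu1 : u ≠ 1) {x : R.Pt} (h : u • x = x) : x = R.inf := by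
  by_contra hx
  obtain ⟨v, hv, rfl⟩ := R.exists_U hx
  rw [smul_smul] at h
  exact hu1 (mul_eq_right.mp (R.U_smul_zero_inj (mul_mem hu hv) hv h))

/-- The points are the point at infinity and the orbit of `zero` under `U`. -/
noncomputable def ptEquiv : Option R.U ≃ R.Pt :=
  Equiv.ofBijective (fun o => o.elim R.inf fun u => (u : G) • R.zero) (by
    constructor
    · rintro (_ | u) (_ | v) h
      · rfl
      · exact absurd h.symm (R.U_smul_zero_ne_inf v.2)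
      · exact absurd h (R.U_smul_zero_ne_inf u.2)
      · exact congrArg some (Subtype.ext (R.U_smul_zero_inj u.2 v.2 h))
    · intro x
      by_cases hx : x = R.inf
      · exact ⟨none, hx.symm⟩
      · obtain ⟨u, hu, h⟩ := R.exists_U hx
        exact ⟨some ⟨u, hu⟩, h⟩)

theorem card_B : Nat.card R.B = Nat.card R.U * Nat.card R.H := by
  rw [← Nat.card_prod]
  symm
  refine Nat.card_congr (Equiv.ofBijective
    (fun p => (⟨p.1 * p.2, mul_mem (R.U_le_B p.1.2) (R.H_le_B p.2.2)⟩ : R.B)) ⟨?_, ?_⟩)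
  · rintro ⟨u, h⟩ ⟨u', h'⟩ e
    have e' : (u : G) * h = u' * h' := congrArg Subtype.val e
    have h1 : (u' : G)⁻¹ * u = h' * (h : G)⁻¹ := by
      rw [inv_mul_eq_iff_eq_mul, ← mul_assoc, ← e', mul_inv_cancel_right]
    have h2 := R.disj _ (mul_mem (inv_mem u'.2) u.2) (h1 ▸ mul_mem h'.2 (inv_mem h.2))
    have h3 : (u : G) = u' := (inv_mul_eq_one.mp h2).symm
    rw [h3] at e'
    exact Prod.ext (Subtype.ext h3) (Subtype.ext (mul_left_cancel e'))
  · rintro ⟨b, hb⟩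
    obtain ⟨u, hu, h, hh, rfl⟩ := (R.mem_B b).mp hb
    exact ⟨(⟨u, hu⟩, ⟨h, hh⟩), rfl⟩

/-- An element commuting with a non-trivial element of `U` lies in `B`. -/
theorem mem_B_of_commute {u : G} (hu : u ∈ R.U) (hu1 : u ≠ 1) {g : G} (h : g * u = u * g) : g ∈ R.B := by
  rw [← smul_inf_eq_iff]
  apply R.U_fix hu hu1
  rw [← mul_smul, ← h, mul_smul, R.U_smul_inf hu]

theorem mem_B_of_conj_U {u c : G} (hu : u ∈ R.U) (hu1 : u ≠ 1) (h : c * u * c⁻¹ ∈ R.U) : c ∈ R.B := by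
  have h1 := R.U_smul_inf h
  rw [mul_smul, mul_smul, ← eq_inv_smul_iff] at h1
  exact inv_mem_iff.mp (R.smul_inf_eq_iff.mp (R.U_fix hu hu1 h1))

variable [Finite G]

theorem card_Pt : Nat.card R.Pt = Nat.card R.U + 1 := by
  rw [← Nat.card_congr R.ptEquiv, Finite.card_option]

theorem index_B : R.B.index = Nat.card R.U + 1 := R.card_Pt

theorem card_G : Nat.card G = (Nat.card R.U + 1) * (Nat.card R.U * Nat.card R.H) := by
  rw [← R.card_B, ← R.index_B, Subgroup.index_mul_card]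

theorem index_U : R.U.index = (Nat.card R.U + 1) * Nat.card R.H := by
  have h := R.U.index_mul_card
  rw [R.card_G, mul_comm (Nat.card R.U), ← mul_assoc] at h
  exact Nat.eq_of_mul_eq_mul_right Nat.card_pos h

section sylow

variable {p : ℕ} [hp : Fact p.Prime] (hU : IsPGroup p R.U) (hU1 : R.U ≠ ⊥) (hH : ¬ p ∣ Nat.card R.H)
include hU hU1 hH

theorem not_dvd_index_U : ¬ p ∣ R.U.index := by
  rw [R.index_U]
  intro h
  rcases (Nat.Prime.dvd_mul hp.out).mp h with h | h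
  · have h1 : p ∣ Nat.card R.U := by
      rcases hU.card_eq_or_dvd with h2 | h2
      · exact absurd (Subgroup.card_eq_one.mp h2) hU1
      · exact h2
    exact hp.out.one_lt.ne' (Nat.dvd_one.mp ((Nat.dvd_add_right h1).mp h))
  · exact hH h

/-- `U` as a Sylow subgroup. -/
noncomputable def sylowU : Sylow p G := hU.toSylow (R.not_dvd_index_U hU hU1 hH)

theorem coe_sylowU : (R.sylowU hU hU1 hH : Subgroup G) = R.U := rfl

end sylow

/-- A proper subgroup of a simple group containing `U` lies in `B`. -/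
theorem le_B_of_U_le [IsSimpleGroup G] (hU1 : R.U ≠ ⊥) {L : Subgroup G} (hL : L ≠ ⊤) (hU : R.U ≤ L) : L ≤ R.B := by
  by_contra h
  obtain ⟨g, hg, hgB⟩ := SetLike.not_le_iff_exists.mp h
  obtain ⟨v, hv, e⟩ := R.exists_U (x := g • R.inf) (by rwa [Ne, R.smul_inf_eq_iff])
  have key : ∀ c : G, ∃ l ∈ L, l • R.inf = c • R.inf := by
    intro c
    by_cases hc : c • R.inf = R.inf
    · exact ⟨1, one_mem _, by rw [one_smul, hc]⟩
    obtain ⟨w, hw, e'⟩ := R.exists_U hc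
    exact ⟨w * v⁻¹ * g, mul_mem (mul_mem (hU hw) (hU (inv_mem hv))) hg, by
      rw [mul_smul, mul_smul, ← e, inv_smul_smul, e']⟩
  have h1 : R.U ≤ L.normalCore := by
    intro u hu c
    obtain ⟨l, hl, e'⟩ := key c
    have h2 : l⁻¹ * c ∈ R.B := by rw [← R.smul_inf_eq_iff, mul_smul, ← e', inv_smul_smul]
    have h3 := mul_mem (mul_mem hl (hU (R.conj_mem_U h2 hu))) (inv_mem hl)
    simpa [mul_assoc] using h3
  rcases (Subgroup.normalCore_normal L).eq_bot_or_eq_top with h2 | h2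
  · exact hU1 (le_bot_iff.mp (h2 ▸ h1))
  · exact hL (top_le_iff.mp (h2 ▸ L.normalCore_le))

end RK

end Cfsg.Agent.BU
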