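import Cfsg.Agent.BU.Bin

/-!
Binary actions of a model of the unitary group with point stabilisers of even order.
-/

set_option autoImplicit false
set_option linter.unusedSectionVars false
set_option linter.unusedSimpArgs false

namespace Cfsg.Agent.BU

open MulAction Cfsg.Agent.H5.U3Syl

variable {F : Type*} [Field F] [CharP F 2] {σ : F →+* F} [hσ : Fact (∀ x, σ (σ x) = x)]

namespace Model

variable {G : Type*} [Group G] [Finite G] (M : Model σ G) (ht : ∀ a : F, ∃ u : PP σ, u.a = a)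
  {Ω : Type*} [MulAction G Ω] [Finite F]

theorem n_n (p : Ω) : M.n • M.n • p = p := by rw [← mul_smul, M.n_sq, one_smul]

include ht in
/-- The stabiliser does not lie between the unipotent group and the Borel subgroup. -/
theorem not_bin_of_U (hb : H9.Bin G Ω) (hcard : Nat.card F < Nat.card (PP σ)) {p : Ω}
    (hU : M.R.U ≤ stabilizer G p) (hB : stabilizer G p ≤ M.B) : False := by
  classical
  have hfin : Finite (PP σ) := Finite.of_injective _ M.x_inj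
  have hd : ∀ u : {u : PP σ // u ≠ 1}, ∃ (y : Fˣ) (v : PP σ),
      M.x u • M.n • p = (M.n * M.x v * M.n) • M.h y • p := by
    rintro ⟨u, hu⟩
    rcases M.bruhat (M.n * M.x u * M.n) with ⟨v, y, e⟩ | ⟨v, w, y, e⟩
    · exact absurd (M.ti u v y e) hu
    refine ⟨y, v, ?_⟩
    have h1 : M.x w • M.h y • p = M.h y • p := by
      have := hU (M.R.conj_mem_U (inv_mem (M.h_mem_B y)) (M.x_mem w))
      rwa [mem_stabilizer_iff, inv_inv, mul_smul, mul_smul, inv_smul_eq_iff] at this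
    have h2 := congrArg (fun g => M.n • g • p) e
    simp only [mul_smul, n_n, h1] at h2
    simp only [mul_smul, h2]
  choose y v hyv using hd
  let Γ : Subgroup Fˣ := (stabilizer G p).comap M.h
  let f : {u : PP σ // u ≠ 1} → Fˣ ⧸ Γ := fun u => y u
  have key : ∀ u u', f u = f u' → ∃ d : Γ, act d u.1 = u'.1 := by
    intro u u' e
    have e1 : M.h (y u') • p = M.h (y u) • p := by
      have : M.h ((y u)⁻¹ * y u') • p = p := QuotientGroup.eq.1 e
      rwa [map_mul, map_inv, mul_smul, inv_smul_eq_iff] at this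
    obtain ⟨g, g1, g2, g3⟩ := hb.triple (x := p) (y := M.n • p) (z := M.x u • M.n • p) (a := M.x (u'.1 * u.1⁻¹))
      (b := M.n * M.x (v u' * (v u)⁻¹) * M.n) (hU (M.x_mem _)) (by
        rw [mul_smul, mul_smul, n_n, hU (M.x_mem _)]) (by
        rw [map_mul, map_inv, mul_smul, inv_smul_smul, hyv, hyv, e1]
        simp only [mul_smul, n_n, map_mul, map_inv, inv_smul_smul])
    obtain ⟨d, rfl⟩ : g ∈ M.R.H := M.R.mem_H_iff.2 ⟨M.R.smul_inf_eq_iff.2 (hB g1), M.R.smul_zero_eq_iff.2 (hB (by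
      show (M.n * g * M.n) • p = p
      rw [mul_smul, mul_smul, g2, n_n]))⟩
    refine ⟨⟨d, g1⟩, ?_⟩
    rw [map_mul, map_inv, mul_smul, inv_smul_smul, ← mul_smul, h_mul_x, mul_smul, g2] at g3
    obtain ⟨w, z, e2⟩ := hB (x := M.n * M.x (u'.1⁻¹ * act d u.1) * M.n) (by
      rw [mem_stabilizer_iff, mul_smul, mul_smul, map_mul, mul_smul, g3, map_inv, inv_smul_smul, n_n])
    exact (inv_mul_eq_one.1 (M.ti _ w z e2)).symm
  have : Nonempty {u : PP σ // u ≠ 1} := ⟨⟨⟨0, 1, by simp [CharTwo.add_self_eq_zero]⟩, fun h =>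
    one_ne_zero (congrArg PP.b h)⟩⟩
  let φ : Option ((Fˣ ⧸ Γ) × Γ) → PP σ := fun o => o.elim 1 fun w => act w.2 (Function.invFun f w.1).1
  have hφ : Function.Surjective φ := by
    intro u
    by_cases hu : u = 1
    · exact ⟨none, hu.symm⟩
    obtain ⟨d, hd⟩ := key (Function.invFun f (f ⟨u, hu⟩)) ⟨u, hu⟩ (Function.invFun_eq ⟨_, rfl⟩)
    exact ⟨some (f ⟨u, hu⟩, d), hd⟩
  have h1 := Nat.card_le_card_of_surjective φ hφ
  rw [Finite.card_option, Nat.card_prod, ← Subgroup.card_eq_card_quotient_mul_card_subgroup, Nat.card_units] at h1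
  have : 0 < Nat.card F := Nat.card_pos
  omega

include ht in
theorem le_B_of_inf (h2 : ∃ t : F, σ t = t ∧ t ≠ 0 ∧ t ≠ 1) {L : Subgroup G} (hZ : M.Z ≤ L)
    (hL : ∀ g ∈ L, g ∈ M.B → g ∈ M.Z) : L ≤ M.B := by
  intro g hg
  by_contra hB
  obtain ⟨t, t1, t2, t3⟩ := h2
  have key : ∀ s ∈ M.Z, s ≠ 1 → ∃ m ∈ L, m * s * m⁻¹ = g * M.z₀ * g⁻¹ := fun s hs hs1 => by
    obtain ⟨k, hk⟩ := M.exists_conj ht (t := g * M.z₀ * g⁻¹) (c := g) hs hs1
      (by simpa [mul_assoc] using M.z₀_mem) (by simpa using M.z₀_ne) hB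
    exact ⟨_, pow_mem (mul_mem (hZ hs) (mul_mem (mul_mem hg (hZ M.z₀_mem)) (inv_mem hg))) k, hk⟩
  let u : PP σ := ⟨0, t, by simp [t1, CharTwo.add_self_eq_zero]⟩
  have hu : M.x u ∈ M.Z := M.z_mem rfl
  have hu1 : M.x u ≠ 1 := fun h => t2 (congrArg PP.b (M.x_eq_one h))
  obtain ⟨m, m1, m2⟩ := key _ M.z₀_mem M.z₀_ne
  obtain ⟨m', m1', m2'⟩ := key _ hu hu1
  have h1 : m⁻¹ * m' * M.x u * (m⁻¹ * m')⁻¹ = M.z₀ := by
    calc _ = m⁻¹ * (m' * M.x u * m'⁻¹) * m := by simp [mul_assoc]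
      _ = _ := by rw [m2', ← m2]; simp [mul_assoc]
  have h3 := hL _ (mul_mem (inv_mem m1) m1') (M.R.mem_B_of_conj_U (M.Z_le_U hu) hu1 (h1 ▸ M.Z_le_U M.z₀_mem))
  rw [← M.Z_comm h3 (M.x_mem u), mul_inv_cancel_right] at h1
  exact t3 (congrArg PP.b (M.x_inj h1))

include ht in
theorem eq_Z_of_bin [IsSimpleGroup G] (hb : H9.Bin G Ω) (hcard : Nat.card F < Nat.card (PP σ))
    (h2 : ∃ t : F, σ t = t ∧ t ≠ 0 ∧ t ≠ 1) (hω : ∃ y : Fˣ, y * σ y = 1 ∧ (y : F) ^ 3 ≠ 1) {p : Ω} (hp : M.Φ p)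
    (hp' : stabilizer G p ≠ ⊤) : stabilizer G p = M.Z := by
  have h0 : ¬ ∀ e, M.T ht e • p = p := fun h => by
    have hU : M.R.U ≤ stabilizer G p := by
      rintro _ ⟨u, rfl⟩
      exact (hp.x_eq ht u).trans (h _)
    exact M.not_bin_of_U ht hb hcard hU (M.R.le_B_of_U_le M.U_ne_bot hp' hU)
  have h1 : ∀ c y, M.T ht c • M.h y • p = p → lam σ y = 1 := by
    intro c y h
    by_contra hl
    have h3 : lam σ y + 1 ≠ 0 := fun h => hl (by grind)
    have h4 : M.h y • p = M.T ht c • p := by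
      conv_rhs => rw [← h, (hp.h ht y).T_T, CharTwo.add_self_eq_zero, (hp.h ht y).T_zero]
    have h5 := all_T_of_h ht hb (hp.T ht (c / (lam σ y + 1))) (y := y) (by
      rw [hp.h_T, h4, hp.T_T]
      congr 2
      field_simp
      grind) hl
    refine h0 fun e => ?_
    have h6 := h5 e
    rw [hp.T_T, add_comm, ← hp.T_T, smul_left_cancel_iff] at h6
    exact h6
  have h3 : ∀ g ∈ stabilizer G p, g ∈ M.B → g ∈ M.Z := by
    rintro _ hg ⟨u, y, rfl⟩
    rw [mem_stabilizer_iff, mul_smul, (hp.h ht y).x_eq ht] at hg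
    have h4 := M.h_one y (h1 _ _ hg)
    rw [h4, mul_one]
    rw [h4, one_smul] at hg
    by_contra h5
    exact h0 (all_T_of_T ht hb hω hp h1 (fun h => h5 (M.z_mem h)) hg)
  exact le_antisymm (fun g hg => h3 g hg (M.le_B_of_inf ht h2 hp h3 hg)) hp

end Model

theorem Model.bin_iff {G : Type*} [Group G] [Finite G] [IsSimpleGroup G] [Fintype F] (M : Model σ G)
    (ht : ∀ a : F, ∃ u : PP σ, u.a = a) (hc : ∀ u : PP σ, (∀ v, v * u = u * v) → u.a = 0)
    (hcard : Nat.card F < Nat.card (PP σ)) (h2 : ∃ t : F, σ t = t ∧ t ≠ 0 ∧ t ≠ 1)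
    (hω : ∃ y : Fˣ, y * σ y = 1 ∧ (y : F) ^ 3 ≠ 1)
    (hone : ∀ s t : G, s ≠ 1 → s * s = 1 → t ≠ 1 → t * t = 1 → ∃ c, c * s * c⁻¹ = t) (H : Subgroup G) (hH : H ≠ ⊤)
    (he : Even (Nat.card H)) : H9.Bin G (G ⧸ H) ↔
      ∃ P : Sylow 2 G, H = (Subgroup.center (P : Subgroup G)).map (P : Subgroup G).subtype := by
  rw [M.center_iff ht hc]
  constructor
  · intro hb
    obtain ⟨s, hs⟩ := exists_prime_orderOf_dvd_card' (G := H) 2 (even_iff_two_dvd.mp he)
    have hs1 : (s : G) ≠ 1 := by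
      intro e; rw [← Subgroup.orderOf_coe, e] at hs; simp at hs
    have hs2 : (s : G) * s = 1 := by rw [← pow_two, ← hs, ← Subgroup.orderOf_coe, pow_orderOf_eq_one]
    obtain ⟨c, hc⟩ := hone _ _ hs1 hs2 M.z₀_ne (M.Z_sq M.z₀_mem)
    have h1 : M.z₀ • (c : G ⧸ H) = c := by
      rw [← mem_stabilizer_iff, H9.mem_stabilizer_coe, ← hc]
      simp [mul_assoc]
    have hp : M.Φ (c : G ⧸ H) := fun z hz => by
      by_cases hz1 : z = 1
      · rw [hz1, one_smul]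
      exact hb.fix hone hz1 (M.Z_sq hz) M.z₀_ne (M.Z_sq M.z₀_mem) (M.Z_comm M.z₀_mem (M.Z_le_U hz)) h1
    have h3 := M.eq_Z_of_bin ht hb hcard h2 hω hp (fun h => hH (by
      rw [eq_top_iff]
      intro g _
      have : c * g * c⁻¹ ∈ stabilizer G (c : G ⧸ H) := h ▸ Subgroup.mem_top _
      rw [H9.mem_stabilizer_coe] at this
      simpa [mul_assoc] using this))
    refine ⟨c⁻¹, fun g => ?_⟩
    rw [← h3, H9.mem_stabilizer_coe]
    simp [mul_assoc]
  · rintro ⟨c, hc⟩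
    refine M.bin_of_Z ht (x := ((c⁻¹ : G) : G ⧸ H)) ?_
    ext g
    rw [H9.mem_stabilizer_coe, hc]
    simp [mul_assoc]

end Cfsg.Agent.BU
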